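import Cfsg.Agent.H308.CA.Stmts

/-!
# 2-subgroups of unitary groups (S3852, CA7; helper911)

`two_pow`: irreducible submodules of a 2-group (any field) have 2-power dimension.
`two_uni`: a 2-group of unitary matrices over a field of odd characteristic is an orthogonal sum of pieces of 2-power
dimension.
-/

set_option autoImplicit false

namespace Cfsg.Agent.H911.CA

open Module

section pow

variable {E : Type*} [Field E] {V : Type*} [AddCommGroup V] [Module E V] {G : Type*} [Group G]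
  (ρ : G →* (V →ₗ[E] V))

/-- invariant submodules -/
def Inv (T : Subgroup G) (W : Submodule E V) : Prop := ∀ t ∈ T, ∀ w ∈ W, ρ t w ∈ W

/-- minimal invariant submodules -/
structure IsMin (T : Subgroup G) (W : Submodule E V) : Prop where
  ne : W ≠ ⊥
  inv : Inv ρ T W
  min : ∀ W' ≤ W, Inv ρ T W' → W' ≠ ⊥ → W' = W

variable {ρ}

theorem Inv.inf {T : Subgroup G} {W W' : Submodule E V} (h : Inv ρ T W) (h' : Inv ρ T W') : Inv ρ T (W ⊓ W') :=
  fun t ht w hw => ⟨h t ht w hw.1, h' t ht w hw.2⟩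

theorem Inv.sup {T : Subgroup G} {W W' : Submodule E V} (h : Inv ρ T W) (h' : Inv ρ T W') : Inv ρ T (W ⊔ W') := by
  intro t ht w hw
  obtain ⟨a, ha, b, hb, rfl⟩ := Submodule.mem_sup.1 hw
  rw [map_add]
  exact Submodule.add_mem_sup (h t ht a ha) (h' t ht b hb)

theorem Inv.mono {T T' : Subgroup G} (hT : T' ≤ T) {W : Submodule E V} (h : Inv ρ T W) : Inv ρ T' W :=
  fun t ht w hw => h t (hT ht) w hw

theorem exists_min [FiniteDimensional E V] {T : Subgroup G} {V' : Submodule E V} (h0 : V' ≠ ⊥) (hi : Inv ρ T V') :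
    ∃ W ≤ V', IsMin ρ T W := by
  obtain ⟨n, hn⟩ : ∃ n, finrank E V' = n := ⟨_, rfl⟩
  induction n using Nat.strong_induction_on generalizing V' with
  | _ n ih =>
    by_cases h : ∃ W' ≤ V', Inv ρ T W' ∧ W' ≠ ⊥ ∧ W' ≠ V'
    · obtain ⟨W', h1, h2, h3, h4⟩ := h
      have h5 := Submodule.finrank_lt_finrank_of_lt (lt_of_le_of_ne h1 h4)
      obtain ⟨W, hW, hm⟩ := ih _ (by rw [← hn]; exact h5) h3 h2 rfl
      exact ⟨W, hW.trans h1, hm⟩
    · push Not at h
      exact ⟨V', le_rfl, h0, hi, fun W' h1 h2 h3 => h W' h1 h2 h3⟩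

theorem rho_inv (t : G) (v : V) : ρ t (ρ t⁻¹ v) = v := by
  have h : ρ t * ρ t⁻¹ = 1 := by rw [← map_mul, mul_inv_cancel, map_one]
  exact LinearMap.congr_fun h v

theorem inv_rho (t : G) (v : V) : ρ t⁻¹ (ρ t v) = v := by
  have h : ρ t⁻¹ * ρ t = 1 := by rw [← map_mul, inv_mul_cancel, map_one]
  exact LinearMap.congr_fun h v

/-- **Irreducible submodules of 2-groups have 2-power dimension.** -/
theorem two_pow [FiniteDimensional E V] (T : Subgroup G) [Finite T] (hT : IsPGroup 2 T) {W : Submodule E V}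
    (hW : IsMin ρ T W) : ∃ a : ℕ, finrank E W = 2 ^ a := by
  have hp : Fact (Nat.Prime 2) := ⟨Nat.prime_two⟩
  obtain ⟨n, hn⟩ := (IsPGroup.iff_card).1 hT
  induction n generalizing T W with
  | zero =>
    refine ⟨0, ?_⟩
    have hT1 : T = ⊥ := by
      rw [pow_zero] at hn
      exact Subgroup.card_eq_one.1 hn
    obtain ⟨w, hw, hw0⟩ := (Submodule.ne_bot_iff W).1 hW.ne
    have h1 : Submodule.span E {w} = W := by
      refine hW.min _ ?_ ?_ ?_
      · rw [Submodule.span_singleton_le_iff_mem]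
        exact hw
      · intro t ht v hv
        rw [hT1, Subgroup.mem_bot] at ht
        rw [ht, map_one]
        exact hv
      · rw [Ne, Submodule.span_singleton_eq_bot]
        exact hw0
    rw [← h1, finrank_span_singleton hw0, pow_zero]
  | succ n ih =>
    obtain ⟨M', hM'⟩ := Sylow.exists_subgroup_card_pow_prime (G := T) 2 (n := n) (by rw [hn, pow_succ]; exact dvd_mul_right _ _)
    have hidx : M'.index = 2 := by
      have h1 := M'.card_mul_index
      rw [hM', hn, pow_succ] at h1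
      exact Nat.eq_of_mul_eq_mul_left (by positivity) h1
    have hnorm : M'.Normal := Subgroup.normal_of_index_eq_two hidx
    obtain ⟨M, hMdef⟩ : ∃ M, M = M'.map T.subtype := ⟨_, rfl⟩
    have hMT : M ≤ T := by rw [hMdef]; exact Subgroup.map_subtype_le _
    have hMfin : Finite M := Finite.of_injective _ (Subgroup.inclusion_injective hMT)
    have hMc : Nat.card M = 2 ^ n := by
      rw [hMdef, Subgroup.card_map_of_injective T.subtype_injective, hM']
    have hMp : IsPGroup 2 M := IsPGroup.of_card hMc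
    have hmem : ∀ t : T, (t : G) ∈ M ↔ t ∈ M' := by
      intro t
      rw [hMdef]
      constructor
      · rintro ⟨s, hs, hst⟩
        rwa [← Subtype.ext hst]
      · intro ht
        exact ⟨t, ht, rfl⟩
    obtain ⟨t, htM⟩ : ∃ t : T, t ∉ M' := by
      by_contra h
      push Not at h
      have : M' = ⊤ := eq_top_iff.2 fun x _ => h x
      rw [this, Subgroup.index_top] at hidx
      omega
    have htt : t * t ∈ M' := Subgroup.mul_self_mem_of_index_two hidx t
    have hcase : ∀ s : T, s ∈ M' ∨ t⁻¹ * s ∈ M' := by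
      intro s
      by_cases hs : s ∈ M'
      · exact Or.inl hs
      · right
        rw [Subgroup.mul_mem_iff_of_index_two hidx]
        exact ⟨fun h => absurd (inv_mem_iff.1 h) htM, fun h => absurd h hs⟩
    obtain ⟨W1, hW1, hm⟩ := exists_min (T := M) hW.ne (hW.inv.mono hMT)
    obtain ⟨a, ha⟩ := ih M hMp hm hMc
    -- the translate
    let θ : V ≃ₗ[E] V := LinearEquiv.ofLinearMap (ρ t) (ρ (t : G)⁻¹) (LinearMap.ext fun v => rho_inv _ v)
      (LinearMap.ext fun v => inv_rho _ v)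
    obtain ⟨W2, hW2⟩ : ∃ W2, W2 = W1.map (ρ t) := ⟨_, rfl⟩
    have hW2e : W2 = W1.map (θ : V →ₗ[E] V) := hW2
    have hdim : finrank E W2 = finrank E W1 := by
      rw [hW2e]
      exact (θ.submoduleMap W1).finrank_eq.symm
    have hi2 : Inv ρ M W2 := by
      rw [hW2]
      rintro m hmM _ ⟨w, hw, rfl⟩
      have hmT := hMT hmM
      have h1 : t⁻¹ * ⟨m, hmT⟩ * t ∈ M' := by
        have h2 := hnorm.conj_mem ⟨m, hmT⟩ ((hmem ⟨m, hmT⟩).1 hmM) t⁻¹
        rwa [inv_inv] at h2
      refine ⟨ρ ((t⁻¹ * ⟨m, hmT⟩ * t : T) : G) w, hm.inv _ ((hmem _).2 h1) w hw, ?_⟩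
      have h3 : (t : G) * ((t⁻¹ * ⟨m, hmT⟩ * t : T) : G) = m * t := by
        push_cast
        group
      change (ρ t * ρ ((t⁻¹ * ⟨m, hmT⟩ * t : T) : G)) w = (ρ m * ρ t) w
      rw [← map_mul, ← map_mul, h3]
    have hsup : W1 ⊔ W2 = W := by
      refine hW.min _ (sup_le hW1 ?_) ?_ ?_
      · rw [hW2]
        rintro _ ⟨w, hw, rfl⟩
        exact hW.inv _ t.2 w (hW1 hw)
      · -- invariance under `T`
        have hts : ∀ w ∈ W1 ⊔ W2, ρ t w ∈ W1 ⊔ W2 := by
          intro w hw
          obtain ⟨x, hx, y, hy, rfl⟩ := Submodule.mem_sup.1 hw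
          rw [map_add]
          refine Submodule.add_mem _ (Submodule.mem_sup_right ?_) (Submodule.mem_sup_left ?_)
          · rw [hW2]
            exact ⟨x, hx, rfl⟩
          · rw [hW2] at hy
            obtain ⟨z, hz, rfl⟩ := hy
            have h2 := hm.inv ((t * t : T) : G) ((hmem _).2 htt) z hz
            have h3 : ρ ((t * t : T) : G) z = ρ t (ρ t z) := by
              rw [Subgroup.coe_mul, map_mul]
              rfl
            rwa [h3] at h2
        have hMs : Inv ρ M (W1 ⊔ W2) := hm.inv.sup hi2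
        intro s hs w hw
        rcases hcase ⟨s, hs⟩ with h | h
        · exact hMs s ((hmem ⟨s, hs⟩).2 h) w hw
        · have h2 := hts _ (hMs _ ((hmem _).2 h) w hw)
          have h3 : ρ t (ρ ((t⁻¹ * ⟨s, hs⟩ : T) : G) w) = ρ s w := by
            change (ρ t * ρ ((t⁻¹ * ⟨s, hs⟩ : T) : G)) w = _
            rw [← map_mul]
            congr 2
            push_cast
            group
          rwa [h3] at h2
      · intro h
        apply hm.ne
        rw [eq_bot_iff, ← h]
        exact le_sup_left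
    by_cases hinf : W1 ⊓ W2 = ⊥
    · refine ⟨a + 1, ?_⟩
      have h1 := Submodule.finrank_sup_add_finrank_inf_eq W1 W2
      rw [hinf, finrank_bot, hsup, hdim, ha] at h1
      rw [pow_succ]
      omega
    · refine ⟨a, ?_⟩
      have h1 := hm.min _ inf_le_left (hm.inv.inf hi2) hinf
      have h2 : W1 ≤ W2 := inf_eq_left.1 h1
      have h3 : W1 = W2 := Submodule.eq_of_le_of_finrank_eq h2 hdim.symm
      rw [← hsup, ← h3, sup_idem, ha]

end pow

open Matrix Cfsg.Agent.H308.CA

section form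

variable {ι : Type} [Fintype ι] [DecidableEq ι] {E : Type} [Field E] [StarRing E]

/-- the hermitian form -/
def hf (v w : ι → E) : E := star v ⬝ᵥ w

theorem hf_add (v w w' : ι → E) : hf v (w + w') = hf v w + hf v w' := dotProduct_add _ _ _

theorem hf_smul (c : E) (v w : ι → E) : hf v (c • w) = c * hf v w := dotProduct_smul _ _ _

theorem hf_symm (v w : ι → E) : star (hf v w) = hf w v := by
  rw [hf, hf, star_dotProduct, star_star]

theorem hf_eq_zero {v w : ι → E} (h : hf v w = 0) : hf w v = 0 := by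
  rw [← hf_symm, h, star_zero]

theorem add_hf (v v' w : ι → E) : hf (v + v') w = hf v w + hf v' w := by
  rw [hf, hf, hf, star_add, add_dotProduct]

theorem hf_zero (v : ι → E) : hf v 0 = 0 := dotProduct_zero _

theorem zero_hf (v : ι → E) : hf 0 v = 0 := by
  rw [hf, star_zero, zero_dotProduct]

theorem hf_mulVec (A : Matrix ι ι E) (v w : ι → E) : hf (A *ᵥ v) w = hf v (star A *ᵥ w) := by
  rw [hf, hf, star_mulVec, dotProduct_mulVec, star_eq_conjTranspose]

theorem hf_nondeg {v : ι → E} (h : ∀ w, hf v w = 0) : v = 0 := by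
  have h1 : star v = 0 := by
    funext i
    have h2 := h (Pi.single i 1)
    rw [hf, dotProduct_single, mul_one] at h2
    exact h2
  rw [← star_star v, h1, star_zero]

theorem hf_ext {x y : ι → E} (h : ∀ v, hf v x = hf v y) : x = y := by
  rw [← sub_eq_zero]
  apply hf_nondeg
  intro w
  apply hf_eq_zero
  rw [sub_eq_add_neg, hf_add, h w, ← hf_add, add_neg_cancel, hf_zero]

/-- the orthogonal complement -/
def perp (U : Submodule E (ι → E)) : Submodule E (ι → E) where
  carrier := {v | ∀ u ∈ U, hf u v = 0}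
  zero_mem' := fun u _ => hf_zero u
  add_mem' := by
    intro v w hv hw u hu
    rw [hf_add, hv u hu, hw u hu, add_zero]
  smul_mem' := by
    intro c v hv u hu
    rw [hf_smul, hv u hu, mul_zero]

theorem mem_perp {U : Submodule E (ι → E)} {v : ι → E} : v ∈ perp U ↔ ∀ u ∈ U, hf u v = 0 := Iff.rfl

/-- the functional given by a vector -/
def toD (B : Submodule E (ι → E)) (v : ι → E) : B →ₗ[E] E where
  toFun b := hf v b
  map_add' a b := hf_add _ _ _
  map_smul' c b := hf_smul _ _ _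

variable [Finite E]

theorem finite_sub (B : Submodule E (ι → E)) : Finite B := Subtype.finite

theorem card_dual (B : Submodule E (ι → E)) : Nat.card (Module.Dual E B) = Nat.card B := by
  rw [Module.natCard_eq_pow_finrank (K := E) (V := Module.Dual E B), Module.natCard_eq_pow_finrank (K := E) (V := B),
    Subspace.dual_finrank_eq]

theorem toD_inj {A B : Submodule E (ι → E)} (h : ∀ a ∈ A, (∀ b ∈ B, hf a b = 0) → a = 0) :
    Function.Injective (fun a : A => toD B (a : ι → E)) := by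
  intro a a' haa
  have h1 : (a : ι → E) - a' = 0 := by
    refine h _ (A.sub_mem a.2 a'.2) fun b hb => ?_
    have h2 := LinearMap.congr_fun haa ⟨b, hb⟩
    have h3 : hf (a : ι → E) b = hf (a' : ι → E) b := h2
    rw [sub_eq_add_neg, add_hf, h3, ← add_hf, add_neg_cancel, zero_hf]
  exact Subtype.ext (sub_eq_zero.1 h1)

theorem one_lt_card : 1 < Nat.card E := Finite.one_lt_card

theorem finrank_le {A B : Submodule E (ι → E)} (h : ∀ a ∈ A, (∀ b ∈ B, hf a b = 0) → a = 0) :
    finrank E A ≤ finrank E B := by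
  have hfin : Finite (Module.Dual E B) := Module.finite_of_finite E
  have h1 := Nat.card_le_card_of_injective _ (toD_inj h)
  change Nat.card A ≤ Nat.card (Module.Dual E B) at h1
  rw [card_dual, Module.natCard_eq_pow_finrank (K := E) (V := A), Module.natCard_eq_pow_finrank (K := E) (V := B)] at h1
  exact (Nat.pow_le_pow_iff_right one_lt_card).1 h1

theorem isCompl_perp {U : Submodule E (ι → E)} (hU : ∀ u ∈ U, (∀ u' ∈ U, hf u u' = 0) → u = 0) :
    IsCompl U (perp U) := by
  have hfin : Finite (Module.Dual E U) := Module.finite_of_finite E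
  constructor
  · rw [Submodule.disjoint_def]
    intro u hu hu'
    exact hU u hu fun u' hu'' => hf_eq_zero (hu' u' hu'')
  · rw [codisjoint_iff, eq_top_iff]
    intro v _
    have hb : Function.Bijective (fun a : U => toD U (a : ι → E)) :=
      (toD_inj hU).bijective_of_nat_card_le (by
        change Nat.card (Module.Dual E U) ≤ Nat.card U
        rw [card_dual])
    obtain ⟨u, hu⟩ := hb.2 (toD U v)
    refine Submodule.mem_sup.2 ⟨u, u.2, v - u, ?_, by rw [add_sub_cancel]⟩
    intro u' hu'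
    have h1 : hf (u : ι → E) u' = hf v u' := LinearMap.congr_fun hu ⟨u', hu'⟩
    apply hf_eq_zero
    rw [sub_eq_add_neg, add_hf, ← h1, ← add_hf, add_neg_cancel, zero_hf]

/-- the orthogonal projection -/
theorem exists_proj {U : Submodule E (ι → E)} (hU : ∀ u ∈ U, (∀ u' ∈ U, hf u u' = 0) → u = 0) :
    ∃ e : Matrix ι ι E, IsP e ∧ (∀ v, e *ᵥ v ∈ U) ∧ (∀ u ∈ U, e *ᵥ u = u) ∧ (∀ v ∈ perp U, e *ᵥ v = 0) := by
  have hc := isCompl_perp hU
  obtain ⟨P, hP⟩ : ∃ P : (ι → E) →ₗ[E] (ι → E), P = U.subtype ∘ₗ U.linearProjOfIsCompl (perp U) hc := ⟨_, rfl⟩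
  have hP1 : ∀ v, P v ∈ U := by
    intro v
    rw [hP]
    exact (U.linearProjOfIsCompl (perp U) hc v).2
  have hP2 : ∀ u ∈ U, P u = u := by
    intro u hu
    rw [hP]
    exact congrArg Subtype.val (Submodule.projectionOnto_apply_left hc ⟨u, hu⟩)
  have hP3 : ∀ v ∈ perp U, P v = 0 := by
    intro v hv
    rw [hP]
    exact congrArg Subtype.val (Submodule.projectionOnto_apply_right hc ⟨v, hv⟩)
  have hP4 : ∀ v, v - P v ∈ perp U := by
    intro v
    obtain ⟨u, hu, w, hw, rfl⟩ := Submodule.mem_sup.1 (show v ∈ U ⊔ perp U by rw [hc.sup_eq_top]; trivial)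
    rw [map_add, hP2 u hu, hP3 w hw, add_zero, add_sub_cancel_left]
    exact hw
  have he : ∀ v, LinearMap.toMatrix' P *ᵥ v = P v := fun v => LinearMap.toMatrix'_mulVec P v
  refine ⟨LinearMap.toMatrix' P, ⟨?_, ?_⟩, fun v => by rw [he]; exact hP1 v, fun u hu => by rw [he]; exact hP2 u hu,
    fun v hv => by rw [he]; exact hP3 v hv⟩
  · apply Matrix.ext_of_mulVec_single
    intro i
    rw [← mulVec_mulVec, he, he, hP2 _ (hP1 _)]
  · apply Matrix.ext_of_mulVec_single
    intro i
    apply hf_ext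
    intro v
    rw [← hf_mulVec, he, he]
    obtain ⟨w, hw⟩ : ∃ w : ι → E, w = Pi.single i 1 := ⟨_, rfl⟩
    rw [← hw]
    have h1 : hf (P v) w = hf (P v) (P w) := by
      conv_lhs => rw [← add_sub_cancel (P w) w]
      rw [hf_add, hP4 w (P v) (hP1 v), add_zero]
    have h2 : hf v (P w) = hf (P v) (P w) := by
      conv_lhs => rw [← add_sub_cancel (P v) v]
      rw [add_hf, hf_eq_zero (hP4 v (P w) (hP1 w)), add_zero]
    rw [h1, h2]

end form

section group

variable {ι : Type} [Fintype ι] [DecidableEq ι] {E : Type} [Field E] [StarRing E]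

/-- the natural representation -/
def rep : SU ι E →* ((ι → E) →ₗ[E] (ι → E)) where
  toFun t := Matrix.toLin' (mt t)
  map_one' := by
    rw [map_one, Matrix.toLin'_one]
    rfl
  map_mul' s t := by
    rw [map_mul, Matrix.toLin'_mul]
    rfl

theorem rep_apply (t : SU ι E) (v : ι → E) : rep t v = mt t *ᵥ v := Matrix.toLin'_apply _ _

theorem hf_rep (t : SU ι E) (v w : ι → E) : hf v (rep t w) = hf (rep t⁻¹ v) w := by
  rw [rep_apply, rep_apply, hf_mulVec, mt_inv, star_star]

theorem inv_perp {T : Subgroup (SU ι E)} {U : Submodule E (ι → E)} (h : Inv rep T U) : Inv rep T (perp U) := by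
  intro t ht v hv u hu
  rw [hf_rep]
  exact hv _ (h t⁻¹ (inv_mem ht) u hu)

variable [Finite E]

/-- Maschke -/
theorem exists_compl (h2 : IsUnit (2 : E)) {T : Subgroup (SU ι E)} (hT : IsPGroup 2 T) {A B : Submodule E (ι → E)}
    (hA : Inv rep T A) (hB : Inv rep T B) (hAB : A ≤ B) : ∃ C ≤ B, Inv rep T C ∧ A ⊓ C = ⊥ ∧ A ⊔ C = B := by
  classical
  have hfin : Finite (SU ι E) := by
    have : Finite (Matrix ι ι E) := inferInstanceAs (Finite (ι → ι → E))
    exact Finite.of_injective _ mt_injective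
  have hft : Fintype T := Fintype.ofFinite T
  obtain ⟨n, hn⟩ := (IsPGroup.iff_card).1 hT
  obtain ⟨N, hN⟩ : ∃ N : E, N = (Fintype.card T : E) := ⟨_, rfl⟩
  have hN0 : N ≠ 0 := by
    rw [hN, ← Nat.card_eq_fintype_card, hn, Nat.cast_pow, Nat.cast_ofNat]
    exact pow_ne_zero _ h2.ne_zero
  obtain ⟨q, hq⟩ := A.exists_isCompl
  obtain ⟨P, hP⟩ : ∃ P : (ι → E) →ₗ[E] (ι → E), P = A.subtype ∘ₗ A.linearProjOfIsCompl q hq := ⟨_, rfl⟩
  have hP1 : ∀ v, P v ∈ A := by
    intro v
    rw [hP]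
    exact (A.linearProjOfIsCompl q hq v).2
  have hP2 : ∀ u ∈ A, P u = u := by
    intro u hu
    rw [hP]
    exact congrArg Subtype.val (Submodule.projectionOnto_apply_left hq ⟨u, hu⟩)
  obtain ⟨P', hP'⟩ : ∃ P' : (ι → E) →ₗ[E] (ι → E), P' = N⁻¹ • ∑ t : T, rep (t : SU ι E) ∘ₗ P ∘ₗ rep (t : SU ι E)⁻¹ := ⟨_, rfl⟩
  have hP'a : ∀ v, P' v = N⁻¹ • ∑ t : T, rep (t : SU ι E) (P (rep (t : SU ι E)⁻¹ v)) := by
    intro v
    rw [hP', LinearMap.smul_apply, LinearMap.sum_apply]
    rfl
  have h1 : ∀ v, P' v ∈ A := by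
    intro v
    rw [hP'a]
    exact A.smul_mem _ (A.sum_mem fun t _ => hA _ t.2 _ (hP1 _))
  have h3 : ∀ a ∈ A, P' a = a := by
    intro a ha
    rw [hP'a]
    have h4 : ∀ t : T, rep (t : SU ι E) (P (rep (t : SU ι E)⁻¹ a)) = a := by
      intro t
      rw [hP2 _ (hA _ (inv_mem t.2) a ha), rho_inv]
    rw [Finset.sum_congr rfl fun t _ => h4 t, Finset.sum_const, Finset.card_univ, ← Nat.cast_smul_eq_nsmul E, ← hN,
      smul_smul, inv_mul_cancel₀ hN0, one_smul]
  have h4 : ∀ s ∈ T, ∀ v, P' (rep s v) = rep s (P' v) := by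
    intro s hs v
    rw [hP'a, hP'a, map_smul, map_sum]
    congr 1
    refine Fintype.sum_equiv (Equiv.mulLeft (⟨s, hs⟩ : T)⁻¹) _ _ fun t => ?_
    have e1 : rep s (rep (((⟨s, hs⟩ : T)⁻¹ * t : T) : SU ι E) (P (rep (((⟨s, hs⟩ : T)⁻¹ * t : T) : SU ι E)⁻¹ v))) =
        (rep s * rep (((⟨s, hs⟩ : T)⁻¹ * t : T) : SU ι E)) (P (rep (((⟨s, hs⟩ : T)⁻¹ * t : T) : SU ι E)⁻¹ v)) := rfl
    rw [Equiv.coe_mulLeft, e1, ← map_mul]
    have e2 : s * (((⟨s, hs⟩ : T)⁻¹ * t : T) : SU ι E) = t := by
      push_cast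
      group
    have e3 : (((⟨s, hs⟩ : T)⁻¹ * t : T) : SU ι E)⁻¹ = (t : SU ι E)⁻¹ * s := by
      push_cast
      group
    rw [e2, e3, map_mul]
    rfl
  refine ⟨B ⊓ LinearMap.ker P', inf_le_left, fun t ht w hw => ⟨hB t ht w hw.1, ?_⟩, ?_, ?_⟩
  · have hw2 : P' w = 0 := hw.2
    change P' (rep t w) = 0
    rw [h4 t ht, hw2, map_zero]
  · rw [eq_bot_iff]
    rintro a ⟨ha, -, ha'⟩
    have ha2 : P' a = 0 := ha'
    rw [h3 a ha] at ha2
    exact ha2
  · apply le_antisymm (sup_le hAB inf_le_left)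
    intro v hv
    refine Submodule.mem_sup.2 ⟨P' v, h1 v, v - P' v, ⟨B.sub_mem hv (hAB (h1 v)), ?_⟩, by rw [add_sub_cancel]⟩
    change P' (v - P' v) = 0
    rw [map_sub, h3 _ (h1 v), sub_self]

/-- one step -/
theorem step (h2 : IsUnit (2 : E)) {T : Subgroup (SU ι E)} (hT : IsPGroup 2 T) {f : Matrix ι ι E} (hf1 : IsP f)
    (hfT : ∀ t ∈ T, mt t * f = f * mt t) (hf0 : f ≠ 0) :
    ∃ e : Matrix ι ι E, IsP e ∧ e ≠ 0 ∧ f * e = e ∧ (∀ t ∈ T, mt t * e = e * mt t) ∧ ∃ a : ℕ, rk e = 2 ^ a := by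
  classical
  have hfin : Finite (SU ι E) := by
    have : Finite (Matrix ι ι E) := inferInstanceAs (Finite (ι → ι → E))
    exact Finite.of_injective _ mt_injective
  -- the fixed space of `f`
  obtain ⟨B, hB⟩ : ∃ B : Submodule E (ι → E), ∀ v, v ∈ B ↔ f *ᵥ v = v :=
    ⟨{ carrier := {v | f *ᵥ v = v}
       zero_mem' := mulVec_zero _
       add_mem' := by
         intro v w hv hw
         change f *ᵥ (v + w) = v + w
         rw [mulVec_add, hv, hw]
       smul_mem' := by
         intro c v hv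
         change f *ᵥ (c • v) = c • v
         rw [mulVec_smul, hv] }, fun v => Iff.rfl⟩
  have hfB : ∀ v, f *ᵥ v ∈ B := by
    intro v
    rw [hB, mulVec_mulVec, hf1.idem]
  have hBT : Inv rep T B := by
    intro t ht v hv
    rw [hB] at hv ⊢
    rw [rep_apply, mulVec_mulVec, ← hfT t ht, ← mulVec_mulVec, hv]
  have hB0 : B ≠ ⊥ := by
    intro h
    apply hf0
    apply Matrix.ext_of_mulVec_single
    intro i
    have h1 := hfB (Pi.single i 1)
    rw [h, Submodule.mem_bot] at h1
    rw [h1, zero_mulVec]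
  have hBn : ∀ v ∈ B, (∀ w ∈ B, hf v w = 0) → v = 0 := by
    intro v hv h
    apply hf_nondeg
    intro w
    rw [← (hB v).1 hv, hf_mulVec, hf1.sym]
    exact h _ (hfB w)
  obtain ⟨W, hWB, hW⟩ := exists_min hB0 hBT
  obtain ⟨a, ha⟩ := two_pow T hT hW
  -- the nondegenerate piece
  obtain ⟨U, hU1, hU2, hU3, hU4, b, hb⟩ : ∃ U ≤ B, U ≠ ⊥ ∧ Inv rep T U ∧ (∀ u ∈ U, (∀ u' ∈ U, hf u u' = 0) → u = 0) ∧
      ∃ b : ℕ, finrank E U = 2 ^ b := by
    by_cases hR : W ⊓ perp W = ⊥
    · refine ⟨W, hWB, hW.ne, hW.inv, fun u hu h => ?_, a, ha⟩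
      have h1 : u ∈ W ⊓ perp W := ⟨hu, fun u' hu' => hf_eq_zero (h u' hu')⟩
      rw [hR] at h1
      exact h1
    · have h1 := hW.min _ inf_le_left (hW.inv.inf (inv_perp hW.inv)) hR
      have hWp : W ≤ perp W := inf_eq_left.1 h1
      obtain ⟨C, hCB, hCT, hAC, hACB⟩ := exists_compl h2 hT ((inv_perp hW.inv).inf hBT) hBT (inf_le_right : perp W ⊓ B ≤ B)
      have hc0 : ∀ c ∈ C, (∀ w ∈ W, hf c w = 0) → c = 0 := by
        intro c hc h
        have h3 : c ∈ (perp W ⊓ B) ⊓ C := ⟨⟨fun u hu => hf_eq_zero (h u hu), hCB hc⟩, hc⟩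
        rw [hAC] at h3
        exact h3
      have hw0 : ∀ w ∈ W, (∀ c ∈ C, hf w c = 0) → w = 0 := by
        intro w hw h
        refine hBn w (hWB hw) fun v hv => ?_
        rw [← hACB] at hv
        obtain ⟨x, hx, c, hc, rfl⟩ := Submodule.mem_sup.1 hv
        rw [hf_add, hx.1 w hw, h c hc, add_zero]
      have hdim : finrank E C = finrank E W := le_antisymm (finrank_le hc0) (finrank_le hw0)
      have hWC : W ⊓ C = ⊥ := by
        rw [eq_bot_iff, ← hAC]
        exact inf_le_inf_right C (le_inf hWp hWB)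
      refine ⟨W ⊔ C, sup_le hWB hCB, fun h => hW.ne ?_, hW.inv.sup hCT, ?_, a + 1, ?_⟩
      · rw [eq_bot_iff, ← h]
        exact le_sup_left
      · intro u hu h
        obtain ⟨w, hw, c, hc, rfl⟩ := Submodule.mem_sup.1 hu
        have h3 : c = 0 := by
          refine hc0 c hc fun w' hw' => ?_
          have h4 := h w' (Submodule.mem_sup_left hw')
          rwa [add_hf, hWp hw' w hw, zero_add] at h4
        subst h3
        rw [add_zero] at h ⊢
        exact hw0 w hw fun c hc => h c (Submodule.mem_sup_right hc)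
      · have h3 := Submodule.finrank_sup_add_finrank_inf_eq W C
        rw [hWC, finrank_bot, hdim, ha] at h3
        rw [pow_succ]
        omega
  obtain ⟨e, he, he1, he2, he3⟩ := exists_proj hU4
  have hfix : ∀ v, e *ᵥ v = v ↔ v ∈ U := fun v => ⟨fun h => by rw [← h]; exact he1 v, he2 v⟩
  refine ⟨e, he, ?_, ?_, ?_, b, ?_⟩
  · rintro rfl
    obtain ⟨u, hu, hu0⟩ := (Submodule.ne_bot_iff U).1 hU2
    apply hu0
    rw [← he2 u hu, zero_mulVec]
  · apply Matrix.ext_of_mulVec_single
    intro i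
    rw [← mulVec_mulVec]
    exact (hB _).1 (hU1 (he1 _))
  · intro t ht
    apply Matrix.ext_of_mulVec_single
    intro i
    obtain ⟨v, hv⟩ : ∃ v : ι → E, v = Pi.single i 1 := ⟨_, rfl⟩
    rw [← hv, ← mulVec_mulVec, ← mulVec_mulVec]
    have hc := isCompl_perp hU4
    obtain ⟨u, hu, w, hw, rfl⟩ := Submodule.mem_sup.1 (show v ∈ U ⊔ perp U by rw [hc.sup_eq_top]; trivial)
    have h3 : mt t *ᵥ u ∈ U := by rw [← rep_apply]; exact hU3 t ht u hu
    have h4 : mt t *ᵥ w ∈ perp U := by rw [← rep_apply]; exact inv_perp hU3 t ht w hw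
    rw [mulVec_add e u w, he2 u hu, he3 w hw, add_zero, mulVec_add (mt t) u w, mulVec_add e, he2 _ h3,
      he3 _ h4, add_zero]
  · have h3 : Nat.card {v : ι → E // e *ᵥ v = v} = Nat.card U := Nat.card_congr (Equiv.subtypeEquivRight hfix)
    rw [rk, h3, Module.natCard_eq_pow_finrank (K := E) (V := U), Nat.log_pow one_lt_card, hb]

theorem decomp (h2 : IsUnit (2 : E)) {T : Subgroup (SU ι E)} (hT : IsPGroup 2 T) (n : ℕ) :
    ∀ f : Matrix ι ι E, IsP f → (∀ t ∈ T, mt t * f = f * mt t) → Nat.card {v : ι → E // f *ᵥ v = v} ≤ n →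
    ∃ (m : ℕ) (e : Fin m → Matrix ι ι E), (∀ i, IsP (e i)) ∧ (∀ i j, i ≠ j → e i * e j = 0) ∧ ∑ i, e i = f ∧
      (∀ i, ∀ t ∈ T, mt t * e i = e i * mt t) ∧ ∀ i, ∃ a : ℕ, rk (e i) = 2 ^ a := by
  induction n with
  | zero =>
    intro f _ _ h
    exfalso
    have : Nonempty {v : ι → E // f *ᵥ v = v} := ⟨⟨0, mulVec_zero _⟩⟩
    have h1 : 0 < Nat.card {v : ι → E // f *ᵥ v = v} := Nat.card_pos
    omega
  | succ n ih =>
    intro f hf1 hfT hn
    by_cases hf0 : f = 0
    · refine ⟨0, Fin.elim0, fun i => i.elim0, fun i => i.elim0, ?_, fun i => i.elim0, fun i => i.elim0⟩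
      rw [hf0]
      exact Finset.sum_of_isEmpty _
    obtain ⟨e, he, he0, hfe, heT, a, ha⟩ := step h2 hT hf1 hfT hf0
    have hef : e * f = e := by
      have h1 := congrArg star hfe
      rwa [star_mul, he.sym, hf1.sym] at h1
    have hg : IsP (f - e) := by
      constructor
      · rw [sub_mul, mul_sub, mul_sub, hf1.idem, hfe, hef, he.idem, sub_self, sub_zero]
      · rw [star_sub, hf1.sym, he.sym]
    have hgT : ∀ t ∈ T, mt t * (f - e) = (f - e) * mt t := by
      intro t ht
      rw [mul_sub, sub_mul, hfT t ht, heT t ht]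
    have hlt : Nat.card {v : ι → E // (f - e) *ᵥ v = v} < Nat.card {v : ι → E // f *ᵥ v = v} := by
      have hsub : ∀ v : ι → E, (f - e) *ᵥ v = v → f *ᵥ v = v := by
        intro v hv
        have h1 : f * (f - e) = f - e := by rw [mul_sub, hf1.idem, hfe]
        rw [← hv, mulVec_mulVec, h1]
      obtain ⟨u, hu, hu0⟩ : ∃ u : ι → E, e *ᵥ u = u ∧ u ≠ 0 := by
        by_contra hcon
        push Not at hcon
        apply he0
        apply Matrix.ext_of_mulVec_single
        intro i
        rw [hcon _ (show e *ᵥ (e *ᵥ Pi.single i 1) = e *ᵥ Pi.single i 1 by rw [mulVec_mulVec, he.idem]), zero_mulVec]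
      refine Set.ncard_lt_ncard (s := {v : ι → E | (f - e) *ᵥ v = v}) (t := {v : ι → E | f *ᵥ v = v})
        ⟨fun v hv => hsub v hv, fun h => hu0 ?_⟩ (Set.toFinite _)
      have h3 : f *ᵥ u = u := by rw [← hu, mulVec_mulVec, hfe]
      have h4 : (f - e) *ᵥ u = u := h h3
      rw [sub_mulVec, h3, hu, sub_self] at h4
      exact h4.symm
    obtain ⟨m, e', h1, h3, h4, h5, h6⟩ := ih (f - e) hg hgT (by omega)
    have h7 : ∀ i, (f - e) * e' i = e' i := by
      intro i
      rw [← h4, Finset.sum_mul, Finset.sum_eq_single i, (h1 i).idem]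
      · intro j _ hj
        exact h3 j i hj
      · intro h
        exact absurd (Finset.mem_univ _) h
    have h8 : ∀ i, e' i * (f - e) = e' i := by
      intro i
      rw [← h4, Finset.mul_sum, Finset.sum_eq_single i, (h1 i).idem]
      · intro j _ hj
        exact h3 i j hj.symm
      · intro h
        exact absurd (Finset.mem_univ _) h
    have h9 : ∀ i, e * e' i = 0 := by
      intro i
      rw [← h7 i, ← mul_assoc, mul_sub, hef, he.idem, sub_self, zero_mul]
    have h10 : ∀ i, e' i * e = 0 := by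
      intro i
      rw [← h8 i, mul_assoc, sub_mul, hfe, he.idem, sub_self, mul_zero]
    refine ⟨m + 1, Fin.cons e e', ?_, ?_, ?_, ?_, ?_⟩
    · intro i
      refine Fin.cases ?_ (fun i => ?_) i
      · exact he
      · exact h1 i
    · intro i j hij
      refine Fin.cases (motive := fun i => i ≠ j → (Fin.cons e e' : Fin (m + 1) → Matrix ι ι E) i *
        (Fin.cons e e' : Fin (m + 1) → Matrix ι ι E) j = 0) ?_ (fun i => ?_) i hij
      · refine Fin.cases (motive := fun j => 0 ≠ j → (Fin.cons e e' : Fin (m + 1) → Matrix ι ι E) 0 *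
          (Fin.cons e e' : Fin (m + 1) → Matrix ι ι E) j = 0) ?_ (fun j => ?_) j
        · intro h
          exact absurd rfl h
        · intro _
          rw [Fin.cons_zero, Fin.cons_succ]
          exact h9 j
      · refine Fin.cases (motive := fun j => i.succ ≠ j → (Fin.cons e e' : Fin (m + 1) → Matrix ι ι E) i.succ *
          (Fin.cons e e' : Fin (m + 1) → Matrix ι ι E) j = 0) ?_ (fun j => ?_) j
        · intro _
          rw [Fin.cons_zero, Fin.cons_succ]
          exact h10 i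
        · intro h
          rw [Fin.cons_succ, Fin.cons_succ]
          exact h3 i j fun h' => h (by rw [h'])
    · rw [Fin.sum_univ_succ, Fin.cons_zero]
      simp only [Fin.cons_succ]
      rw [h4, add_sub_cancel]
    · intro i
      refine Fin.cases ?_ (fun i => ?_) i
      · exact heT
      · exact h5 i
    · intro i
      refine Fin.cases ?_ (fun i => ?_) i
      · exact ⟨a, ha⟩
      · exact h6 i

end group

/-- **S3852, CA7.** -/
theorem two_uni (E : Type) [Field E] [Finite E] [StarRing E] (_hs : ∃ a : E, star a ≠ a) : TwoSt E := by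
  intro h2 ι _ _ T hT
  obtain ⟨m, e, h⟩ := decomp h2 hT _ 1 ⟨one_mul _, star_one _⟩ (fun t _ => by rw [mul_one, one_mul]) le_rfl
  exact ⟨m, e, h⟩

end Cfsg.Agent.H911.CA
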