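import Cfsg.Agent.H308.CA.TGrp

/-!
# Sylow subgroups of `SU` and `TA` structures (S3852, CA15; helper911)
-/

set_option autoImplicit false
set_option linter.unusedSectionVars false
set_option linter.unusedVariables false

namespace Cfsg.Agent.H911.CA

open Subgroup Matrix Cfsg.Agent.H308.CA

universe u

section grp

/-- a Sylow subgroup of a group which is an `l`-group modulo a central subgroup is normal -/
theorem sylow_normal_of_central {H : Type*} [Group H] [Finite H] {l : ℕ} [hl : Fact l.Prime] (Z : Subgroup H)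
    (hZ : ∀ z ∈ Z, ∀ x : H, z * x = x * z) (hq : ∀ x : H, ∃ n : ℕ, x ^ l ^ n ∈ Z) (Q : Sylow l H) :
    (Q : Subgroup H).Normal := by
  have hZn : Z.Normal := ⟨fun z hz g => by rw [← hZ z hz g, mul_inv_cancel_right]; exact hz⟩
  have hq' : IsPGroup l (H ⧸ Z) := by
    intro x
    obtain ⟨x, rfl⟩ := QuotientGroup.mk_surjective x
    obtain ⟨m, hm⟩ := hq x
    exact ⟨m, by rw [← QuotientGroup.mk_pow, QuotientGroup.eq_one_iff]; exact hm⟩
  have hsup : (Q : Subgroup H) ⊔ Z = ⊤ := by
    have h4 : (Q : Subgroup H).index.Coprime l := (Nat.Prime.coprime_iff_not_dvd hl.out).2 Q.not_dvd_index |>.symm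
    have h5 : ((Q : Subgroup H) ⊔ Z).index ∣ (Q : Subgroup H).index := index_dvd_of_le le_sup_left
    have h6 : ((Q : Subgroup H) ⊔ Z).index ∣ Z.index := index_dvd_of_le le_sup_right
    obtain ⟨m, hm⟩ := IsPGroup.iff_card.1 hq'
    rw [← index_eq_card] at hm
    rw [hm] at h6
    have h7 : Nat.gcd (Q : Subgroup H).index (l ^ m) = 1 := Nat.Coprime.pow_right m h4
    have h8 := Nat.dvd_gcd h5 h6
    rw [h7, Nat.dvd_one] at h8
    exact index_eq_one.1 h8
  rw [← normalizer_eq_top_iff, eq_top_iff, ← hsup]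
  refine sup_le le_normalizer ?_
  intro z hz
  rw [mem_normalizer_iff]
  intro x
  rw [hZ z hz x, mul_inv_cancel_right]

/-- an element of `l`-power order lies in a normal Sylow subgroup -/
theorem mem_sylow_of_pow {H : Type*} [Group H] [Finite H] {l : ℕ} [hl : Fact l.Prime] (Q : Sylow l H)
    (hQ : (Q : Subgroup H).Normal) {x : H} {n : ℕ} (hx : x ^ l ^ n = 1) : x ∈ (Q : Subgroup H) := by
  have h1 : IsPGroup l (zpowers x) := by
    rintro ⟨y, hy⟩
    obtain ⟨k, rfl⟩ := mem_zpowers_iff.1 hy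
    refine ⟨n, Subtype.ext ?_⟩
    change (x ^ k) ^ l ^ n = 1
    rw [← zpow_natCast, ← _root_.zpow_mul, mul_comm, _root_.zpow_mul, zpow_natCast, hx, _root_.one_zpow]
  obtain ⟨R, hR⟩ := h1.exists_le_sylow
  have := Sylow.unique_of_normal Q hQ
  have h2 : R = Q := Subsingleton.elim _ _
  rw [← h2]
  exact hR (mem_zpowers x)

/-- an element of the normaliser outside, with square inside, gives an even index -/
theorem two_dvd_index {G : Type*} [Group G] [Finite G] {X : Subgroup G} {w : G} (h1 : ∀ x ∈ X, w * x * w⁻¹ ∈ X)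
    (h2 : w * w ∈ X) (h3 : w ∉ X) : 2 ∣ X.index := by
  have h4 : w ∈ normalizer (X : Set G) := by
    rw [mem_normalizer_iff]
    intro x
    refine ⟨h1 x, fun hx => ?_⟩
    have h5 := h1 _ hx
    have h6 := mul_mem (mul_mem (inv_mem h2) h5) h2
    have e : (w * w)⁻¹ * (w * (w * x * w⁻¹) * w⁻¹) * (w * w) = x := by group
    rwa [e] at h6
  have h5 : 2 ∣ X.relIndex (normalizer (X : Set G)) := by
    rw [relIndex, index_eq_card]
    have h6 : orderOf (QuotientGroup.mk' (X.subgroupOf (normalizer (X : Set G))) ⟨w, h4⟩) = 2 := by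
      refine orderOf_eq_prime ?_ ?_
      · rw [← map_pow]
        refine (QuotientGroup.eq_one_iff _).2 ?_
        rw [mem_subgroupOf]
        change w ^ 2 ∈ X
        rw [pow_two]; exact h2
      · intro h7
        have h8 := (QuotientGroup.eq_one_iff _).1 h7
        rw [mem_subgroupOf] at h8
        exact h3 h8
    rw [← h6]
    exact orderOf_dvd_natCard _
  rw [← relIndex_mul_index (le_normalizer (H := X))]
  exact Dvd.dvd.mul_right h5 _

end grp

section rank

variable {ι : Type} [Fintype ι] [DecidableEq ι] {E : Type} [CommRing E] [StarRing E]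

theorem isP_orth {e f : Matrix ι ι E} (he : IsP e) (hf : IsP f) (hef : e * f = 0) : f * e = 0 := by
  have := congrArg star hef
  rwa [star_mul, he.sym, hf.sym, star_zero] at this

theorem isP_add {e f : Matrix ι ι E} (he : IsP e) (hf : IsP f) (hef : e * f = 0) : IsP (e + f) := by
  have hfe := isP_orth he hf hef
  refine ⟨?_, by rw [star_add, he.sym, hf.sym]⟩
  rw [add_mul, mul_add, mul_add, he.idem, hf.idem, hef, hfe, add_zero, zero_add]

theorem isP_compl {e : Matrix ι ι E} (he : IsP e) : IsP (1 - e) := by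
  refine ⟨?_, by rw [star_sub, star_one, he.sym]⟩
  rw [sub_mul, mul_sub, mul_sub, one_mul, one_mul, mul_one, he.idem]
  abel

theorem isP_mul {e f : Matrix ι ι E} (he : IsP e) (hf : IsP f) (hc : e * f = f * e) : IsP (e * f) := by
  refine ⟨?_, by rw [star_mul, he.sym, hf.sym, hc]⟩
  calc e * f * (e * f) = e * (f * e) * f := by simp only [mul_assoc]
    _ = e * e * (f * f) := by rw [← hc]; simp only [mul_assoc]
    _ = e * f := by rw [he.idem, hf.idem]

/-- the three pieces `e, f, 1 - e - f` -/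
theorem fam3 {e f : Matrix ι ι E} (he : IsP e) (hf : IsP f) (hef : e * f = 0) :
    (∀ i : Fin 3, IsP ((![e, f, 1 - e - f] : Fin 3 → Matrix ι ι E) i)) ∧
    (∀ i j : Fin 3, i ≠ j → (![e, f, 1 - e - f] : Fin 3 → Matrix ι ι E) i * (![e, f, 1 - e - f] : Fin 3 → Matrix ι ι E) j = 0) ∧
    ∑ i : Fin 3, (![e, f, 1 - e - f] : Fin 3 → Matrix ι ι E) i = 1 := by
  have hfe := isP_orth he hf hef
  have hg : IsP (1 - e - f) := by
    have := isP_compl (isP_add he hf hef)
    rwa [← sub_sub] at this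
  refine ⟨?_, ?_, ?_⟩
  · intro i
    fin_cases i
    · exact he
    · exact hf
    · exact hg
  · intro i j hij
    fin_cases i <;> fin_cases j <;> first | exact absurd rfl hij | skip
    · exact hef
    · change e * (1 - e - f) = 0
      rw [mul_sub, mul_sub, mul_one, he.idem, hef]; abel
    · exact hfe
    · change f * (1 - e - f) = 0
      rw [mul_sub, mul_sub, mul_one, hf.idem, hfe]; abel
    · change (1 - e - f) * e = 0
      rw [sub_mul, sub_mul, one_mul, he.idem, hfe]; abel
    · change (1 - e - f) * f = 0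
      rw [sub_mul, sub_mul, one_mul, hf.idem, hef]; abel
  · rw [Fin.sum_univ_three]
    change e + f + (1 - e - f) = 1
    abel

/-- ranks are additive -/
theorem rk_add (h : Gd E) {e f : Matrix ι ι E} (he : IsP e) (hf : IsP f) (hef : e * f = 0) :
    rk (e + f) = rk e + rk f := by
  obtain ⟨h1, h2, h3⟩ := fam3 he hf hef
  obtain ⟨u, c, hc⟩ := H248.CA.onSt h ι (Fin 3) _ h1 h2 h3
  have hc0 : e = star (H308.CA.mt u) * dg (fun x => c x = 0) * H308.CA.mt u := hc 0
  have hc1 : f = star (H308.CA.mt u) * dg (fun x => c x = 1) * H308.CA.mt u := hc 1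
  have hd : (dg (fun x => c x = 0 ∨ c x = 1) : Matrix ι ι E) = dg (fun x => c x = 0) + dg (fun x => c x = 1) := by
    rw [dg, dg, dg, diagonal_add]
    congr 1
    funext x
    by_cases h0 : c x = 0
    · have h1 : ¬ c x = 1 := by rw [h0]; decide
      simp [h0]
    · by_cases h1 : c x = 1
      · simp [h1]
      · simp [h0, h1]
  have hs : e + f = star (H308.CA.mt u) * dg (fun x => c x = 0 ∨ c x = 1) * H308.CA.mt u := by
    rw [hd, mul_add, add_mul, ← hc0, ← hc1]
  rw [hs, H248.CA.rk_conj h]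
  conv_rhs => rw [hc0, hc1]
  rw [H248.CA.rk_conj h, H248.CA.rk_conj h, Fintype.card_subtype_or_disjoint]
  rw [Pi.disjoint_iff]
  intro x
  rw [Prop.disjoint_iff]
  rintro ⟨h4, h5⟩
  rw [h4] at h5
  exact absurd h5 (by decide)

theorem rk_one (h : Gd E) : rk (1 : Matrix ι ι E) = Fintype.card ι := by
  have h1 : (dg (fun _ => True) : Matrix ι ι E) = 1 := by
    rw [dg, ← diagonal_one]
    congr 1
  have h2 := H248.CA.rk_conj h (1 : SU ι E) (fun _ => True)
  rw [h1, mul_one, star_mt_mul] at h2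
  rw [h2, Fintype.card_subtype_true]

theorem rk_zero (h : Gd E) : rk (0 : Matrix ι ι E) = 0 := by
  have h1 := rk_add h (e := (0 : Matrix ι ι E)) (f := 0) ⟨mul_zero _, star_zero _⟩ ⟨mul_zero _, star_zero _⟩ (mul_zero _)
  rw [add_zero] at h1
  omega

/-- `1 - 2 e` has determinant `(-1) ^ rk e` -/
theorem det_refl (h : Gd E) {e : Matrix ι ι E} (he : IsP e) : (1 - e - e).det = (-1) ^ rk e := by
  obtain ⟨h1, h2, h3⟩ := fam3 (e := e) (f := 1 - e) he (isP_compl he) (by rw [mul_sub, mul_one, he.idem, sub_self])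
  obtain ⟨u, c, hc⟩ := H248.CA.onSt h ι (Fin 3) _ h1 h2 h3
  have hc0 : e = star (H308.CA.mt u) * dg (fun x => c x = 0) * H308.CA.mt u := hc 0
  have hd : 1 - e - e = star (H308.CA.mt u) * diagonal (fun x => if c x = 0 then (-1 : E) else 1) * H308.CA.mt u := by
    have h4 : diagonal (fun x => if c x = 0 then (-1 : E) else 1) = 1 - dg (fun x => c x = 0) - dg (fun x => c x = 0) := by
      rw [dg, ← diagonal_one, diagonal_sub, diagonal_sub]
      congr 1
      funext x
      by_cases h0 : c x = 0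
      · simp [h0]
      · simp [h0]
    rw [h4, mul_sub, mul_sub, sub_mul, sub_mul, ← hc0, mul_one, star_mt_mul]
  rw [hd, det_mul, det_mul, mt_det, mul_one, star_eq_conjTranspose, det_conjTranspose, mt_det, star_one, one_mul,
    det_diagonal, Finset.prod_ite, Finset.prod_const, Finset.prod_const_one, mul_one]
  conv_rhs => rw [hc0, H248.CA.rk_conj h]
  rw [Fintype.card_subtype]

end rank

section syl

variable {Γ : Type u} [Group Γ] [Finite Γ] {ι : Type} [Fintype ι] [DecidableEq ι] {E : Type} [CommRing E] [StarRing E]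

/-- Sylow subgroups of the image lift to `SU` -/
theorem syl_lift (h : Gd E) (T : TA Γ ι E) (hD : DetSt E) {l : ℕ} [hl : Fact l.Prime] {P : Subgroup Γ}
    (hP : P ≤ T.j.range) (hp : IsPGroup l P) (hi : ¬ l ∣ P.relIndex T.j.range) :
    ∃ S : Subgroup (SU ι E), IsPGroup l S ∧ ¬ l ∣ S.index ∧ S.map T.j ≤ P ∧
      ∀ g : Γ, g ∈ normalizer (P : Set Γ) → ∀ s ∈ S, T.act hD g s ∈ S := by
  have hfE := h.finite
  have hfin : Finite (SU ι E) := inferInstance
  set H : Subgroup (SU ι E) := P.comap T.j with hH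
  have hHi : ¬ l ∣ H.index := by rw [hH, index_comap]; exact hi
  obtain ⟨Q⟩ : Nonempty (Sylow l H) := inferInstance
  have hQn : (Q : Subgroup H).Normal := by
    refine sylow_normal_of_central (T.j.ker.subgroupOf H) ?_ ?_ Q
    · intro z hz x
      have h1 : (z : SU ι E) ∈ scal ι E := by
        rw [mem_scal, ← T.j_mem_Z, MonoidHom.mem_ker.1 (mem_subgroupOf.1 hz)]
        exact one_mem _
      exact Subtype.ext (scal_comm h1)
    · intro x
      obtain ⟨n, hn⟩ := hp ⟨T.j x, x.2⟩
      refine ⟨n, ?_⟩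
      rw [mem_subgroupOf, MonoidHom.mem_ker, coe_pow, map_pow]
      exact congrArg Subtype.val hn
  refine ⟨(Q : Subgroup H).map H.subtype, Q.2.map _, ?_, ?_, ?_⟩
  · have hle : (Q : Subgroup H).map H.subtype ≤ H := map_subtype_le _
    rw [← relIndex_mul_index hle]
    refine Nat.Prime.not_dvd_mul hl.out ?_ hHi
    rw [relIndex, subgroupOf, comap_map_eq_self_of_injective H.subtype_injective]
    exact Q.not_dvd_index
  · rintro _ ⟨_, ⟨x, -, rfl⟩, rfl⟩
    exact x.2
  · rintro g hg _ ⟨x, hx, rfl⟩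
    have h1 : T.act hD g x ∈ H := by
      change T.j (T.act hD g x) ∈ P
      rw [← T.conj_eq hD]
      exact (mem_normalizer_iff.1 hg _).1 x.2
    obtain ⟨n, hn⟩ := Q.2 ⟨x, hx⟩
    have hn' : (x : SU ι E) ^ l ^ n = 1 := congrArg (fun y : (Q : Subgroup H) => ((y : H) : SU ι E)) hn
    refine ⟨⟨T.act hD g x, h1⟩, mem_sylow_of_pow Q hQn (n := n) (Subtype.ext ?_), rfl⟩
    change (T.act hD g x) ^ l ^ n = 1
    apply mt_injective
    rw [map_pow, T.mt_act, ← map_pow, ← map_pow, hn', map_one, map_one]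

/-- **(b)** -/
theorem rk_ne_of_sylow (h : Gd E) {S : Subgroup (SU ι E)} (hS : ¬ 2 ∣ S.index) {e f : Matrix ι ι E} (he : IsP e)
    (hf : IsP f) (hef : e * f = 0) (hse : ∀ s ∈ S, H308.CA.mt s * e = e * H308.CA.mt s) (hsf : ∀ s ∈ S, H308.CA.mt s * f = f * H308.CA.mt s)
    (hr : rk e = rk f) : e = f := by
  have hfE := h.finite
  have hfin : Finite (SU ι E) := inferInstance
  by_contra hne
  have hfe := isP_orth he hf hef
  obtain ⟨h1, h2, h3⟩ := fam3 he hf hef
  obtain ⟨k1, k2, k3⟩ := fam3 hf he hfe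
  obtain ⟨g, hg⟩ := fam_st h ι (Fin 3) _ _ h1 h2 h3 k1 k2 k3 (by
    intro i
    fin_cases i
    · exact hr
    · exact hr.symm
    · change rk (1 - e - f) = rk (1 - f - e)
      rw [sub_right_comm])
  have hge : H308.CA.mt g * e * star (H308.CA.mt g) = f := hg 0
  have hgf : H308.CA.mt g * f * star (H308.CA.mt g) = e := hg 1
  -- `g e = f g`
  have a1 : H308.CA.mt g * e = f * H308.CA.mt g := by
    rw [← hge, mul_assoc, mul_assoc, star_mt_mul, mul_one]
  have a2 : H308.CA.mt g * f = e * H308.CA.mt g := by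
    rw [← hgf, mul_assoc, mul_assoc, star_mt_mul, mul_one]
  have a3 : star (H308.CA.mt g) * f = e * star (H308.CA.mt g) := by
    rw [← hge, ← mul_assoc, ← mul_assoc, star_mt_mul, one_mul]
  have a4 : star (H308.CA.mt g) * e = f * star (H308.CA.mt g) := by
    rw [← hgf, ← mul_assoc, ← mul_assoc, star_mt_mul, one_mul]
  let X : Subgroup (SU ι E) :=
    { carrier := {u | H308.CA.mt u * e = e * H308.CA.mt u ∧ H308.CA.mt u * f = f * H308.CA.mt u}
      one_mem' := by
        show mt 1 * e = e * mt 1 ∧ mt 1 * f = f * mt 1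
        rw [map_one, one_mul, mul_one, one_mul, mul_one]
        exact ⟨rfl, rfl⟩
      mul_mem' := by
        rintro a b ⟨ha, ha'⟩ ⟨hb, hb'⟩
        show H308.CA.mt (a * b) * e = e * H308.CA.mt (a * b) ∧ H308.CA.mt (a * b) * f = f * H308.CA.mt (a * b)
        rw [map_mul, mul_assoc, hb, ← mul_assoc, ha, mul_assoc, mul_assoc (H308.CA.mt a), hb', ← mul_assoc (H308.CA.mt a), ha', mul_assoc]
        exact ⟨rfl, rfl⟩
      inv_mem' := by
        rintro a ⟨ha, ha'⟩
        show H308.CA.mt a⁻¹ * e = e * H308.CA.mt a⁻¹ ∧ H308.CA.mt a⁻¹ * f = f * H308.CA.mt a⁻¹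
        rw [mt_inv]
        constructor
        · have := congrArg star ha
          rw [star_mul, star_mul, he.sym] at this
          exact this.symm
        · have := congrArg star ha'
          rw [star_mul, star_mul, hf.sym] at this
          exact this.symm }
  have hX : ∀ {u : SU ι E}, u ∈ X ↔ H308.CA.mt u * e = e * H308.CA.mt u ∧ H308.CA.mt u * f = f * H308.CA.mt u := Iff.rfl
  have hSX : S ≤ X := fun s hs => ⟨hse s hs, hsf s hs⟩
  apply hS
  refine (two_dvd_index (X := X) (w := g) ?_ ?_ ?_).trans (index_dvd_of_le hSX)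
  · intro x hx
    rw [hX] at hx ⊢
    rw [map_mul, map_mul, mt_inv]
    constructor
    · rw [mul_assoc, a4, ← mul_assoc, mul_assoc (H308.CA.mt g), hx.2, ← mul_assoc, a2]
      simp only [mul_assoc]
    · rw [mul_assoc, a3, ← mul_assoc, mul_assoc (H308.CA.mt g), hx.1, ← mul_assoc, a1]
      simp only [mul_assoc]
  · rw [hX, map_mul]
    constructor
    · rw [mul_assoc, a1, ← mul_assoc, a2, mul_assoc]
    · rw [mul_assoc, a2, ← mul_assoc, a1, mul_assoc]
  · intro hx
    apply hne
    have h5 : e * H308.CA.mt g = f * H308.CA.mt g := by rw [← hx.1, a1]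
    have h6 := congrArg (fun x => x * star (H308.CA.mt g)) h5
    simpa only [mul_assoc, mt_mul_star, mul_one] using h6

/-- the rank is invariant under ring automorphisms -/
theorem rk_map (h : Gd E) (h0 : Nonempty ι) (θ : RingAut (Matrix ι ι E)) (e : Matrix ι ι E) : rk (θ e) = rk e := by
  have hfE := h.finite
  have hn : Fintype.card ι ≠ 0 := Fintype.card_ne_zero
  have key : ∀ f : Matrix ι ι E, Nat.card {a : Matrix ι ι E // f * a = a} =
      Nat.card {v : ι → E // f *ᵥ v = v} ^ Fintype.card ι := by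
    intro f
    rw [← Nat.card_eq_fintype_card (α := ι), ← Nat.card_fun]
    refine Nat.card_congr
      { toFun := fun a j => ⟨fun i => a.1 i j, ?_⟩
        invFun := fun c => ⟨Matrix.of fun i j => (c j).1 i, ?_⟩
        left_inv := fun a => rfl
        right_inv := fun c => rfl }
    · funext i
      exact congrFun (congrFun a.2 i) j
    · ext i j
      exact congrFun (c j).2 i
  have h1 : Nat.card {a : Matrix ι ι E // θ e * a = a} = Nat.card {a : Matrix ι ι E // e * a = a} := by
    refine Nat.card_congr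
      { toFun := fun a => ⟨θ.symm a.1, ?_⟩
        invFun := fun a => ⟨θ a.1, by rw [← map_mul, a.2]⟩
        left_inv := fun a => Subtype.ext (θ.apply_symm_apply a.1)
        right_inv := fun a => Subtype.ext (θ.symm_apply_apply a.1) }
    have h2 := congrArg θ.symm a.2
    rwa [map_mul, θ.symm_apply_apply] at h2
  rw [key, key] at h1
  have h2 := Nat.pow_left_injective hn h1
  rw [rk, rk, h2]

/-- **(c)** -/
theorem exists_fix_of_sylow2 (h : Gd E) (T : TA Γ ι E) (hD : DetSt E) (h2 : IsUnit (2 : E)) (hTwo : TwoSt E)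
    (hn : ¬ ∃ a : ℕ, Fintype.card ι = 2 ^ a) (h0 : Nonempty ι) {P : Subgroup Γ} (hP : P ≤ T.j.range)
    (hp : IsPGroup 2 P) (hi : ¬ 2 ∣ P.relIndex T.j.range) :
    ∃ e : Matrix ι ι E, IsP e ∧ e ≠ 0 ∧ e ≠ 1 ∧ ∀ g ∈ normalizer (P : Set Γ), T.ρ g e = e := by
  have hfE := h.finite
  have hnt := h.nontrivial
  have hfin : Finite (SU ι E) := inferInstance
  obtain ⟨S, hS1, hS2, hS3, hS4⟩ := syl_lift h T hD hP hp hi
  obtain ⟨m, e, he, heo, hes, heS, her⟩ := hTwo h2 ι S hS1
  have hne1 : ∀ i, e i ≠ 1 := by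
    intro i h1
    obtain ⟨a, ha⟩ := her i
    rw [h1, rk_one h] at ha
    exact hn ⟨a, ha⟩
  have hne0 : ∀ i, e i ≠ 0 := by
    intro i h1
    obtain ⟨a, ha⟩ := her i
    rw [h1, rk_zero h] at ha
    exact (pow_pos (by norm_num : 0 < 2) a).ne ha
  obtain ⟨i, a, ha⟩ : ∃ i, ∃ a : ℕ, rk (e i) = 2 ^ (a + 1) := by
    by_contra hcon
    push Not at hcon
    have h1 : ∀ i, rk (e i) = 1 := by
      intro i
      obtain ⟨a, ha⟩ := her i
      rcases a with _ | a
      · rwa [pow_zero] at ha
      · exact absurd ha (hcon i a)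
    rcases m with _ | _ | m
    · rw [Finset.univ_eq_empty, Finset.sum_empty] at hes
      exact zero_ne_one hes
    · rw [Fin.sum_univ_one] at hes
      exact hne1 0 hes
    · have h01 : (0 : Fin (m + 2)) ≠ 1 := by
        intro h3
        have := congrArg Fin.val h3
        simp at this
      have h3 := rk_ne_of_sylow h hS2 (he 0) (he 1) (heo 0 1 h01) (heS 0) (heS 1) (by rw [h1, h1])
      apply hne0 0
      rw [← (he 0).idem]
      conv_lhs => rw [h3]
      have h4 := heo 0 1 h01
      rw [h3] at h4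
      exact h4
  obtain ⟨f, hf⟩ : ∃ f, f = e i := ⟨_, rfl⟩
  have hfP : IsP f := hf ▸ he i
  have hfS : ∀ s ∈ S, H308.CA.mt s * f = f * H308.CA.mt s := hf ▸ heS i
  have hfr : rk f = 2 ^ (a + 1) := hf ▸ ha
  have hsq : (1 - f - f) * (1 - f - f) = 1 := by
    have e1 : (1 - f - f) * (1 - f - f) = 1 - f - f - f - f + (f * f + f * f + f * f + f * f) := by noncomm_ring
    rw [e1, hfP.idem]
    abel
  have hstar : star (1 - f - f) = 1 - f - f := by
    rw [star_sub, star_sub, star_one, hfP.sym]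
  have hdet : (1 - f - f).det = 1 := by
    rw [det_refl h hfP, hfr, pow_succ, pow_mul']
    norm_num
  obtain ⟨u, hu⟩ : ∃ u : SU ι E, H308.CA.mt u = 1 - f - f := ⟨mkSU (1 - f - f) (by rw [hstar, hsq]) hdet, rfl⟩
  have hu2 : u * u = 1 := by
    apply mt_injective
    rw [map_mul, hu, hsq, map_one]
  have huc : ∀ s ∈ S, u * s = s * u := by
    intro s hs
    apply mt_injective
    rw [map_mul, map_mul, hu, sub_mul, sub_mul, mul_sub, mul_sub, one_mul, mul_one, hfS s hs]
  have huS : u ∈ S := by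
    have h3 : IsPGroup 2 (zpowers u) := by
      rintro ⟨y, hy⟩
      obtain ⟨k, rfl⟩ := mem_zpowers_iff.1 hy
      refine ⟨1, Subtype.ext ?_⟩
      change (u ^ k) ^ 2 ^ 1 = 1
      rw [pow_one, pow_two, ← (Commute.refl u).mul_zpow, hu2, _root_.one_zpow]
    have h4 : zpowers u ≤ normalizer (S : Set (SU ι E)) := by
      rw [zpowers_le]
      refine centralizer_le_normalizer _ (mem_centralizer_iff.2 fun s hs => (huc s hs).symm)
    have h5 : IsPGroup 2 (S ⊔ zpowers u : Subgroup (SU ι E)) := hS1.to_sup_of_normal_left' h3 h4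
    have h6 := (hS1.toSylow hS2).is_maximal' h5 le_sup_left
    have h7 : u ∈ S ⊔ zpowers u := (le_sup_right : zpowers u ≤ _) (mem_zpowers u)
    rw [h6] at h7
    exact h7
  refine ⟨f, hfP, hf ▸ hne0 i, hf ▸ hne1 i, fun g hg => ?_⟩
  obtain ⟨f', hf'⟩ : ∃ f', f' = T.ρ g f := ⟨_, rfl⟩
  rw [← hf']
  have hf'P : IsP f' := hf' ▸ T.ρ_isP g hfP
  have hf'S : ∀ s ∈ S, H308.CA.mt s * f' = f' * H308.CA.mt s := by
    intro s hs
    have h3 := hS4 g⁻¹ (inv_mem hg) s hs
    have h4 := congrArg (T.ρ g) (hfS _ h3)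
    rwa [map_mul, map_mul, T.mt_act, T.ρ_inv', ← hf'] at h4
  have hcomm : f * f' = f' * f := by
    have h3 := hf'S u huS
    rw [hu, sub_mul, sub_mul, mul_sub, mul_sub, one_mul, mul_one] at h3
    have h4 : (2 : E) • (f * f') = (2 : E) • (f' * f) := by
      rw [two_smul, two_smul]
      have h5 : f' - (f' - f * f' - f * f') = f' - (f' - f' * f - f' * f) := by rw [h3]
      have e1 : f' - (f' - f * f' - f * f') = f * f' + f * f' := by abel
      have e2 : f' - (f' - f' * f - f' * f) = f' * f + f' * f := by abel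
      rwa [e1, e2] at h5
    exact h2.smul_left_cancel.1 h4
  have c1 : f * (1 - f') = (1 - f') * f := by rw [mul_sub, sub_mul, mul_one, one_mul, hcomm]
  have c2 : f' * (1 - f) = (1 - f) * f' := by rw [mul_sub, sub_mul, mul_one, one_mul, hcomm]
  have p0 : IsP (f * f') := isP_mul hfP hf'P hcomm
  have p1 : IsP (f * (1 - f')) := isP_mul hfP (isP_compl hf'P) c1
  have p2 : IsP (f' * (1 - f)) := isP_mul hf'P (isP_compl hfP) c2
  have z1 : f' * (1 - f') = 0 := by rw [mul_sub, mul_one, hf'P.idem, sub_self]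
  have z2 : f * (1 - f) = 0 := by rw [mul_sub, mul_one, hfP.idem, sub_self]
  have o1 : f * f' * (f * (1 - f')) = 0 := by
    rw [c1, mul_assoc, ← mul_assoc f', z1, zero_mul, mul_zero]
  have o2 : f * f' * (f' * (1 - f)) = 0 := by
    rw [hcomm, c2, mul_assoc, ← mul_assoc f, z2, zero_mul, mul_zero]
  have o3 : f * (1 - f') * (f' * (1 - f)) = 0 := by
    have z3 : (1 - f') * f' = 0 := by rw [sub_mul, one_mul, hf'P.idem, sub_self]
    rw [mul_assoc, ← mul_assoc (1 - f'), z3, zero_mul, mul_zero]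
  have r1 : rk f = rk (f * f') + rk (f * (1 - f')) := by
    rw [← rk_add h p0 p1 o1]
    congr 1
    rw [← mul_add, add_sub_cancel, mul_one]
  have r2 : rk f' = rk (f * f') + rk (f' * (1 - f)) := by
    rw [← rk_add h p0 p2 o2]
    congr 1
    rw [hcomm, ← mul_add, add_sub_cancel, mul_one]
  have r3 : rk f' = rk f := by rw [hf', rk_map h h0]
  have hsub : ∀ s ∈ S, ∀ x : Matrix ι ι E, H308.CA.mt s * x = x * H308.CA.mt s →
      H308.CA.mt s * (1 - x) = (1 - x) * H308.CA.mt s := by
    intro s _ x hx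
    rw [mul_sub, sub_mul, mul_one, one_mul, hx]
  have hmul : ∀ s ∈ S, ∀ x y : Matrix ι ι E, H308.CA.mt s * x = x * H308.CA.mt s → H308.CA.mt s * y = y * H308.CA.mt s →
      H308.CA.mt s * (x * y) = x * y * H308.CA.mt s := by
    intro s _ x y hx hy
    rw [← mul_assoc, hx, mul_assoc, hy, mul_assoc]
  have h8 : f * (1 - f') = f' * (1 - f) := by
    refine rk_ne_of_sylow h hS2 p1 p2 o3 (fun s hs => hmul s hs _ _ (hfS s hs) (hsub s hs _ (hf'S s hs)))
      (fun s hs => hmul s hs _ _ (hf'S s hs) (hsub s hs _ (hfS s hs))) (by omega)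
  have h9 : f * (1 - f') = 0 := by
    rw [← p1.idem]
    conv_lhs => rw [h8]
    rw [← h8] at o3 ⊢
    exact o3
  have h10 : f' * (1 - f) = 0 := by rw [← h8, h9]
  rw [mul_sub, mul_one, sub_eq_zero] at h9 h10
  rw [h10, ← hcomm, ← h9]

end syl

end Cfsg.Agent.H911.CA
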